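import Cfsg.Agent.H142.GmnCoreFive
import Cfsg.Agent.H467.OddNormRow

/-!
# S3855: the torus criterion (helper86)

* `ev_core` : an elementary abelian subgroup `E` of `S` such that no other elementary abelian subgroup of the same order
  normalises `E`, and an element of `S` acting on `E` as a reflection (determinant `-1`) : `Ev p S`.
-/

set_option autoImplicit false

namespace Cfsg.Agent.H86.On

open Subgroup Cfsg.Agent.H467.OddNorm Cfsg.Agent.H142.GmnCoreFive

variable {S : Type*} [Group S] {p : ℕ} [hp : Fact p.Prime] {E : Subgroup S}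

/-- a homomorphism to `(ZMod p)ˣ` with value `-1` -/
theorem ev_of_unit [Finite S] (hp2 : p ≠ 2) (hZ : center S = ⊥) {M : Subgroup (MulAut S)} (hM : ¬ p ∣ M.index)
    (f : ↥M →* (ZMod p)ˣ) {s : S} (hs : MulAut.conj s ∈ M) (hf : f ⟨MulAut.conj s, hs⟩ = -1) : Ev p S := by
  classical
  have hfin : Finite (MulAut S) := H712.Gmn.finite_mulAut (S := S)
  have hne : (-1 : (ZMod p)ˣ) ≠ 1 := by
    intro h
    have h1 : (-1 : ZMod p) = 1 := by
      have := congrArg (fun x : (ZMod p)ˣ => (x : ZMod p)) h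
      simpa using this
    have h2 : ((2 : ℕ) : ZMod p) = 0 := by
      push_cast
      linear_combination -h1
    rw [ZMod.natCast_eq_zero_iff] at h2
    exact hp2 ((Nat.prime_dvd_prime_iff_eq hp.out Nat.prime_two).1 h2)
  have hm1 : (-1 : (ZMod p)ˣ) * -1 = 1 := by rw [neg_mul_neg, one_mul]
  let K : Subgroup (ZMod p)ˣ :=
    { carrier := {x | x = 1 ∨ x = -1}
      one_mem' := Or.inl rfl
      mul_mem' := by
        rintro a b (rfl | rfl) (rfl | rfl)
        · exact Or.inl (one_mul _)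
        · exact Or.inr (one_mul _)
        · exact Or.inr (mul_one _)
        · exact Or.inl hm1
      inv_mem' := by
        rintro a (rfl | rfl)
        · exact Or.inl inv_one
        · exact Or.inr (inv_eq_of_mul_eq_one_left hm1) }
  let M₁ : Subgroup (MulAut S) := (K.comap f).map M.subtype
  have hmem : ∀ x : MulAut S, x ∈ M₁ ↔ ∃ h : x ∈ M, f ⟨x, h⟩ = 1 ∨ f ⟨x, h⟩ = -1 := by
    intro x
    constructor
    · rintro ⟨⟨y, hy⟩, hk, rfl⟩
      exact ⟨hy, hk⟩
    · rintro ⟨h, hk⟩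
      exact ⟨⟨x, h⟩, hk, rfl⟩
  have hidx : ¬ p ∣ M₁.index := by
    have h1 : M₁.index = (K.comap f).index * M.index := by
      rw [Subgroup.index_map, Subgroup.ker_subtype, sup_bot_eq, Subgroup.range_subtype]
    rw [h1]
    intro h2
    rcases (hp.out.dvd_mul).1 h2 with h3 | h3
    · rw [Subgroup.index_comap] at h3
      have h4 : K.relIndex f.range ∣ Nat.card (ZMod p)ˣ :=
        (relIndex_dvd_card _ _).trans (card_subgroup_dvd_card _)
      have h5 := h3.trans h4
      rw [Nat.card_eq_fintype_card, ZMod.card_units] at h5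
      have := Nat.le_of_dvd (by have := hp.out.two_le; omega) h5
      have := hp.out.two_le
      omega
    · exact hM h3
  have hle : M₁ ≤ M := fun x hx => ((hmem x).1 hx).1
  let g : ↥M₁ →* (ZMod p)ˣ := f.comp (inclusion hle)
  have hg : ∀ x : ↥M₁, g x = 1 ∨ g x = -1 := fun x => ((hmem x).1 x.2).2
  let χ : ↥M₁ →* ℤˣ :=
    { toFun := fun x => if g x = 1 then 1 else -1
      map_one' := by rw [map_one, if_pos rfl]
      map_mul' := by
        intro x y
        rw [map_mul]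
        rcases hg x with h1 | h1 <;> rcases hg y with h2 | h2 <;> simp [h1, h2, hne] }
  have hs1 : MulAut.conj s ∈ M₁ := (hmem _).2 ⟨hs, Or.inr hf⟩
  refine Ev.of_hom hp2 hZ hidx χ (s := s) hs1 ?_
  have h1 : g ⟨MulAut.conj s, hs1⟩ = -1 := hf
  show (if g ⟨MulAut.conj s, hs1⟩ = 1 then (1 : ℤˣ) else -1) ≠ 1
  rw [h1, if_neg hne]
  decide

/-- **The core.** -/
theorem ev_core [Finite S] (hp2 : p ≠ 2) (hEc : ∀ x ∈ E, ∀ y ∈ E, x * y = y * x) (hEp : ∀ x ∈ E, x ^ p = 1)
    (hZ : center S = ⊥)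
    (huniq : ∀ E' : Subgroup S, (∀ x ∈ E', ∀ y ∈ E', x * y = y * x) → (∀ x ∈ E', x ^ p = 1) →
      Nat.card E' = Nat.card E → (∀ x ∈ E', ∀ y ∈ E, x * y * x⁻¹ ∈ E) → E' = E) (s : S)
    (hs : ∀ y ∈ E, s * y * s⁻¹ ∈ E) (u : ↥E) (m : ↥E → ZMod p) (hm : ∀ x y, m (x * y) = m x + m y)
    (hsm : ∀ x : ↥E, s * x * s⁻¹ = x * (u : S) ^ (m x).val) (hu : m u = -2) : Ev p S := by
  obtain ⟨f, hf1, hf2⟩ := exists_det (p := p) hEc hEp
  refine ev_of_unit hp2 hZ (index_St hEc hEp huniq) f (conj_mem_St hs) ?_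
  have h2 := hf2 ⟨MulAut.conj s, conj_mem_St hs⟩ m u hm fun x => hsm x
  apply Units.ext
  rw [h2, hu, Units.val_neg, Units.val_one]
  ring

end Cfsg.Agent.H86.On
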