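import Cfsg.Agent.H467.OddNormRow

/-!
# S3855: reality of the central elements of order `p` of a Sylow subgroup (helper86)
-/

set_option autoImplicit false

namespace Cfsg.Agent.H86.On

open Subgroup Cfsg.Agent.H467.OddNorm

/-- the elements of order `p` commuting with a Sylow subgroup `Q` are real -/
theorem ev_of_central_real {S : Type*} [Group S] [Finite S] {p : ℕ} [hp : Fact p.Prime] (hp2 : p ≠ 2)
    (hZ : center S = ⊥) (hd : p ∣ Nat.card S) (Q : Sylow p S)
    (h : ∀ z : S, z ≠ 1 → z ^ p = 1 → (∀ s ∈ Q, s * z = z * s) → IsConj z z⁻¹) : Ev p S := by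
  classical
  refine Ev.of_real hp2 hZ hd fun z hz hi => ?_
  obtain ⟨P0⟩ : Nonempty (Sylow p ↥(centralizer ({z} : Set S))) := inferInstance
  set P : Subgroup S := (P0 : Subgroup ↥(centralizer ({z} : Set S))).map (centralizer ({z} : Set S)).subtype with hP
  have hPM : P ≤ centralizer ({z} : Set S) := by
    rintro _ ⟨x, -, rfl⟩
    exact x.2
  have hPp : IsPGroup p ↥P := P0.isPGroup'.map _
  have hPi : ¬ p ∣ P.index := by
    have h1 : P.relIndex (centralizer ({z} : Set S)) * (centralizer ({z} : Set S)).index = P.index :=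
      relIndex_mul_index hPM
    have h2 : P.relIndex (centralizer ({z} : Set S)) = (P0 : Subgroup ↥(centralizer ({z} : Set S))).index := by
      rw [relIndex, hP, subgroupOf, comap_map_eq_self_of_injective (subtype_injective _)]
    rw [← h1, h2]
    intro h3
    rcases (hp.out.dvd_mul).1 h3 with h3 | h3
    · exact P0.not_dvd_index h3
    · exact hi h3
  obtain ⟨g, hg⟩ := MulAction.exists_smul_eq S Q (hPp.toSylow hPi)
  have hgP : ∀ s ∈ Q, g * s * g⁻¹ ∈ P := by
    intro s hs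
    have h1 : g * s * g⁻¹ ∈ (g • Q : Sylow p S) := by
      show g * s * g⁻¹ ∈ ((g • Q : Sylow p S) : Subgroup S)
      rw [Sylow.coe_subgroup_smul]
      exact ⟨s, hs, rfl⟩
    rw [hg] at h1
    exact h1
  have hz1 : g⁻¹ * z * g ≠ 1 := by
    intro h1
    have h2 : z = 1 := by
      have : z = g * (g⁻¹ * z * g) * g⁻¹ := by group
      rw [this, h1, mul_one, mul_inv_cancel]
    rw [h2, orderOf_one] at hz
    exact hp.out.one_lt.ne hz
  have hzp : (g⁻¹ * z * g) ^ p = 1 := by
    have e : g⁻¹ * z * g = g⁻¹ * z * g⁻¹⁻¹ := by rw [inv_inv]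
    rw [e, conj_pow, ← hz, pow_orderOf_eq_one, mul_one, inv_inv, inv_mul_cancel]
  have h1 := h (g⁻¹ * z * g) hz1 hzp (fun s hs => by
    have h2 := mem_centralizer_singleton_iff.1 (hPM (hgP s hs))
    calc s * (g⁻¹ * z * g) = g⁻¹ * (g * s * g⁻¹ * z) * g := by group
      _ = g⁻¹ * (z * (g * s * g⁻¹)) * g := by rw [h2]
      _ = g⁻¹ * z * g * s := by group)
  obtain ⟨c, hc⟩ := isConj_iff.1 h1
  refine ⟨g * c * g⁻¹, ?_⟩
  calc g * c * g⁻¹ * z * (g * c * g⁻¹)⁻¹ = g * (c * (g⁻¹ * z * g) * c⁻¹) * g⁻¹ := by group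
    _ = g * (g⁻¹ * z * g)⁻¹ * g⁻¹ := by rw [hc]
    _ = z⁻¹ := by group

end Cfsg.Agent.H86.On
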