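import Cfsg.Agent.H86.On.Core
import Cfsg.Agent.H142.GmnFive
import Cfsg.Agent.H795.TorSub

/-!
# S3855: groups with a torus setup (helper86)

* `ev_of_setup` : a finite group `S` with a `TorSetup` at the odd prime `p`, the `p`-torsion `E` of the torus being
  unique in the sense of `ev_core` : `Ev p S`;
* `ev_five` : `p = 5`;
* `ev_large` : `p` prime to the order of the Weyl group.
-/

set_option autoImplicit false
set_option linter.unusedSectionVars false

namespace Cfsg.Agent.H86.On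

open CoxeterSystem Subgroup Cfsg Cfsg.Lie Cfsg.Lie.ChevalleyDatum
open Cfsg.Agent.ChevalleyStructure Cfsg.Agent.ChevalleyStructure.Elts Cfsg.Agent.ChevalleyStructure.CoxeterGeom
  Cfsg.Agent.ChevalleyStructure.CoxeterGeomTypes Cfsg.Agent.ChevalleyStructure.NPerm
open Cfsg.Agent.Tits.Roots Cfsg.Agent.Tits.Core Cfsg.Agent.Nodes Cfsg.Agent.Nodes.Reps Cfsg.Agent.Nodes.BNOf
  Cfsg.Agent.Nodes.RGDChev Cfsg.Agent.Nodes.Bruhat
open Cfsg.Agent.KFacts.RgdField Cfsg.Agent.KFacts.RgdChevCoord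
open Cfsg.Agent.BpExc Cfsg.Agent.BpExc.TorCent Cfsg.Agent.BpExc.TorChev Cfsg.Agent.BpExc.Tow
open Cfsg.Agent.BpExc.TowChev Cfsg.Agent.BpExc.NChev
open Cfsg.Agent.BpExc.RowsUntw Cfsg.Agent.BpExc.FamInst Cfsg.Agent.BpExc.FamExt
open Cfsg.Agent.H696.GmnToral Cfsg.Agent.H696.GmnTor Cfsg.Agent.H696.GmnInv Cfsg.Agent.H696.GmnTorSetup
open Cfsg.Agent.H142.GmnFive Cfsg.Agent.H467.OddNorm
open Cfsg.Agent.H129.TorusChar (cX IsMC cX_root exists_cX isMC_cX cX_inj cX_mul cX_sr cX_one cX_pow)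

universe u v

variable {D : ChevalleyDatum} {l : ℕ} {M : CoxeterMatrix (Fin l)} (hp : IsType D l M) {k : Type u} [Field k]
  [IsAlgClosed k] (hk : LocFin k) (r : ℕ) [Fact r.Prime] [CharP k r] {W : Type v} [Group W] (cs : CoxeterSystem M W)
  {S : Type*} [Group S] {p : ℕ} [hpp : Fact p.Prime]

include hp hk r cs in
/-- **The row.** A finite group with a torus setup at the odd prime `p`. -/
theorem ev_of_setup [Finite S] [Finite W] (hp2 : p ≠ 2) {ζ : k} (hζ : IsPrimitiveRoot ζ p) (hZ : center S = ⊥)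
    (i0 : Fin l) {ι : S →* ↥(D.group k)} {v : ↥(D.group k)} (H : TorSetup hp hk r cs p ι v)
    (huniq : ∀ (j : S →* ↥(D.group k)) (hj : Function.Injective j), (∀ s, j s = v⁻¹ * ι s * v) →
      (∀ (i : Fin l) (c : k), c ^ p = 1 → hc hp i c ∈ j.range) →
      ∀ E' : Subgroup S, (∀ x ∈ E', ∀ y ∈ E', x * y = y * x) → (∀ x ∈ E', x ^ p = 1) →
      Nat.card E' = Nat.card (EE hp hj p) → (∀ x ∈ E', ∀ y ∈ EE hp hj p, x * y * x⁻¹ ∈ EE hp hj p) →
      E' = EE hp hj p) : Ev p S := by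
  have hζ0 : ζ ≠ 0 := hζ.ne_zero hpp.out.ne_zero
  let j : S →* ↥(D.group k) := (MulAut.conj v⁻¹).toMonoidHom.comp ι
  have hjv : ∀ s, j s = v⁻¹ * ι s * v := fun s => by
    show v⁻¹ * ι s * v⁻¹⁻¹ = _
    rw [inv_inv]
  have hj : Function.Injective j := (MulAut.conj v⁻¹).injective.comp H.inj
  have htors : ∀ (i : Fin l) (c : k), c ^ p = 1 → hc hp i c ∈ j.range := by
    intro i c hc5
    obtain ⟨s, hs⟩ := H.tors i c hc5
    refine ⟨s, ?_⟩
    rw [hjv, hs]
    group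
  obtain ⟨s, hs⟩ := H.lift (cs.simple i0)
  rw [← hjv] at hs
  have hEc := EE_comm hp hj (p := p)
  have hEp : ∀ x ∈ EE hp hj p, x ^ p = 1 := fun x hx => hx.2
  -- logarithms
  have hlog : ∀ x : ↥(EE hp hj p), ∃ n : ℕ, ζ ^ n = cX hp (j x) (sr i0) := by
    intro x
    have h1 : (cX hp (j x) (sr i0)) ^ p = 1 := by
      rw [← cX_pow hp x.2.1, ← map_pow, x.2.2, map_one, cX_one]
    have : NeZero p := ⟨hpp.out.ne_zero⟩
    obtain ⟨n, -, hn⟩ := hζ.eq_pow_of_pow_eq_one h1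
    exact ⟨n, hn⟩
  choose lg hlg using hlog
  have hpe : ∀ n m : ℕ, ζ ^ n = ζ ^ m ↔ ((n : ZMod p) = (m : ZMod p)) := by
    intro n m
    rw [← zpow_natCast, ← zpow_natCast, ← div_eq_one_iff_eq (zpow_ne_zero _ hζ0), ← zpow_sub₀ hζ0,
      hζ.zpow_eq_one_iff_dvd, ← ZMod.intCast_zmod_eq_zero_iff_dvd]
    push_cast
    exact sub_eq_zero
  have : NeZero p := ⟨hpp.out.ne_zero⟩
  have hval : ∀ x : ↥(EE hp hj p), ζ ^ (((lg x : ℕ) : ZMod p)).val = cX hp (j x) (sr i0) := by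
    intro x
    rw [← hlg x, hpe, ZMod.natCast_val, ZMod.cast_id]
  -- the coroot element
  obtain ⟨u0, hu0⟩ := htors i0 ζ hζ.pow_eq_one
  have hu0E : u0 ∈ EE hp hj p := by
    refine ⟨by rw [hu0]; exact hc_mem hp i0 hζ0, hj ?_⟩
    rw [map_pow, hu0, map_one]
    refine cX_inj hp (pow_mem (hc_mem hp i0 hζ0) p) (one_mem _) fun i => ?_
    rw [cX_pow hp (hc_mem hp i0 hζ0), cX_one, cX_hc hp i0 hζ0, ← zpow_natCast, ← zpow_mul, mul_comm, zpow_mul,
      zpow_natCast, hζ.pow_eq_one, one_zpow]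
  have hju : ∀ x, cX hp (j u0⁻¹) x = (ζ ^ pairing (cartanOf D l) i0 x)⁻¹ := by
    intro x
    rw [map_inv, cX_inv' hp hu0E.1, hu0, cX_hc hp i0 hζ0]
  have huT : j u0⁻¹ ∈ TT D k := (inv_mem hu0E).1
  refine ev_core hp2 hEc hEp hZ ?_ s ?_ ⟨u0⁻¹, inv_mem hu0E⟩ (fun x => ((lg x : ℕ) : ZMod p)) ?_ ?_ ?_
  · intro E' h1 h2 h3 h4
    exact huniq j hj hjv htors E' h1 h2 h3 h4
  · intro y hy
    refine ⟨?_, ?_⟩
    · rw [map_mul, map_mul, map_inv]
      exact (cX_rp hp hk r cs hs hy.1).1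
    · rw [conj_pow, hy.2, mul_one, mul_inv_cancel]
  · intro x y
    show ((lg (x * y) : ℕ) : ZMod p) = ((lg x : ℕ) : ZMod p) + ((lg y : ℕ) : ZMod p)
    rw [← Nat.cast_add, ← hpe, hlg, pow_add, hlg, hlg]
    show cX hp (j ((x : S) * y)) (sr i0) = _
    rw [map_mul, cX_mul hp x.2.1 y.2.1]
  · intro x
    show s * x * s⁻¹ = x * u0⁻¹ ^ (((lg x : ℕ) : ZMod p)).val
    obtain ⟨h1, h2⟩ := cX_rp hp hk r cs hs x.2.1
    apply hj
    rw [map_mul, map_mul, map_inv, map_mul, map_pow]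
    refine cX_inj hp h1 (mul_mem x.2.1 (pow_mem huT _)) fun i => ?_
    obtain ⟨n, hn⟩ : ∃ n, n = (((lg x : ℕ) : ZMod p)).val := ⟨_, rfl⟩
    have h3 : rep cs hp.isCartan (cs.simple i0) (rep cs hp.isCartan (cs.simple i0) (sr i)) = sr i := by
      rw [← rep_mul_apply, cs.simple_mul_simple_self, map_one, Module.End.one_apply]
    have h4 := h2 (rep cs hp.isCartan (cs.simple i0) (sr i))
    rw [h3] at h4
    rw [h4, cX_mul hp x.2.1 (pow_mem huT _), cX_pow hp huT, hju, rep_simple, refl_apply]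
    have hcX := isMC_cX hp x.2.1
    have h5 : sr i - Pi.single i0 (pairing (cartanOf D l) i0 (sr i)) =
        sr i + (-pairing (cartanOf D l) i0 (sr i)) • (sr i0 : Fin l → ℤ) := by
      generalize pairing (cartanOf D l) i0 (sr i) = c
      rw [sub_eq_add_neg, ← Pi.single_neg]
      congr 1
      show Pi.single i0 (-c) = (-c) • (Pi.single i0 (1 : ℤ) : Fin l → ℤ)
      rw [← Pi.single_smul, smul_eq_mul, mul_one]
    rw [h5, hcX.add, hcX.zsmul, ← hval x, ← hn]
    congr 1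
    rw [← zpow_natCast ζ n, ← zpow_natCast, ← zpow_mul, ← zpow_neg, ← zpow_mul]
    congr 1
    ring
  · show ((lg ⟨u0⁻¹, inv_mem hu0E⟩ : ℕ) : ZMod p) = -2
    have h1 := hlg ⟨u0⁻¹, inv_mem hu0E⟩
    have h5 : pairing (cartanOf D l) i0 (sr i0) = 2 := by
      rw [sr, pairing_single, mul_one]
      exact hp.isCartan.diag i0
    have h3 := hju (sr i0)
    rw [h5] at h3
    have h4 : ζ ^ (lg ⟨u0⁻¹, inv_mem hu0E⟩) = (ζ ^ (2 : ℤ))⁻¹ := h1.trans h3
    have h6 : ζ ^ (((lg ⟨u0⁻¹, inv_mem hu0E⟩ : ℕ) : ℤ) + 2) = 1 := by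
      rw [zpow_add₀ hζ0, zpow_natCast, h4, inv_mul_cancel₀ (zpow_ne_zero _ hζ0)]
    have h7 := (hζ.zpow_eq_one_iff_dvd _).1 h6
    rw [← ZMod.intCast_zmod_eq_zero_iff_dvd] at h7
    push_cast at h7
    linear_combination h7

include hp hk r cs in
/-- the torus contains the `p`-torsion of each `p`-subgroup normalising it -/
theorem unique_large [Finite S] (hpr : p ≠ r) (hW : ¬ p ∣ Nat.card M.Group) {ζ : k} (hζ : IsPrimitiveRoot ζ p)
    {d : ℕ} {B : Fin l → Fin l → ℤ} (hB : InvC D l d B) (hpd : Nat.Coprime p d)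
    (j : S →* ↥(D.group k)) (hj : Function.Injective j)
    (htors : ∀ (i : Fin l) (c : k), c ^ p = 1 → hc hp i c ∈ j.range)
    {E' : Subgroup S} (hE'c : ∀ x ∈ E', ∀ y ∈ E', x * y = y * x) (hE'p : ∀ x ∈ E', x ^ p = 1)
    (hcard : Nat.card E' = Nat.card (EE hp hj p))
    (hnorm : ∀ x ∈ E', ∀ y ∈ EE hp hj p, x * y * x⁻¹ ∈ EE hp hj p) : E' = EE hp hj p := by
  classical
  have : NeZero p := ⟨hpp.out.ne_zero⟩
  set E := EE hp hj p with hE
  -- the product
  have hEp : IsPGroup p ↥E := fun x => ⟨1, Subtype.ext (by rw [pow_one]; exact x.2.2)⟩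
  have hE'pg : IsPGroup p ↥E' := fun x => ⟨1, Subtype.ext (by rw [pow_one]; exact hE'p x x.2)⟩
  have hle : E' ≤ normalizer (E : Set S) := by
    intro x hx
    rw [Subgroup.mem_normalizer_iff]
    intro y
    refine ⟨hnorm x hx y, fun hy => ?_⟩
    have h1 := hnorm x⁻¹ (inv_mem hx) _ hy
    have e : x⁻¹ * (x * y * x⁻¹) * x⁻¹⁻¹ = y := by group
    rwa [e] at h1
  have hsup : IsPGroup p ↥(E' ⊔ E) := hE'pg.to_sup_of_normal_right' hEp hle
  have h1 : IsPGroup p ↥((E' ⊔ E).map j) := hsup.map j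
  have hfin : Finite ↥((E' ⊔ E).map j) :=
    Set.Finite.to_subtype (s := (((E' ⊔ E).map j : Subgroup ↥(D.group k)) : Set ↥(D.group k))) (by
      rw [Subgroup.coe_map]; exact Set.toFinite _)
  obtain ⟨g, hg⟩ := H795.TorSub.exists_toral_of_not_dvd hp r hk hpp.out hpr hW h1
  have hg' : ∀ x ∈ E' ⊔ E, g * j x * g⁻¹ ∈ TT D k := fun x hx => hg _ ⟨x, hx, rfl⟩
  -- `E` has order `p ^ l`
  have hcE : p ^ l ≤ Nat.card ↥E := by
    obtain ⟨t, ht⟩ := exists_basic hp hB (d := d) (by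
      rintro rfl
      rw [Nat.coprime_zero_right] at hpd
      exact hpp.out.one_lt.ne' hpd) hpp.out.ne_zero hζ
    have hex : ∀ i, ∃ e ∈ E, j e = t i := by
      intro i
      obtain ⟨e, he⟩ := tors_mem hp hB hpd (P := j.range) htors (ht i).1 (ht i).2.1
      refine ⟨e, ⟨by rw [he]; exact (ht i).1, hj ?_⟩, he⟩
      rw [map_pow, he, (ht i).2.1, map_one]
    choose e heE he using hex
    -- the products
    have hprod : ∀ (n : Fin l → ℕ) (T : Finset (Fin l)), ∃ x ∈ E, ∀ y : Fin l → ℤ,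
        cX hp (j x) y = ∏ i ∈ T, (ζ ^ y i) ^ n i := by
      intro n T
      induction T using Finset.induction_on with
      | empty => exact ⟨1, one_mem _, fun y => by rw [map_one, cX_one, Finset.prod_empty]⟩
      | insert i T hi ih =>
        obtain ⟨x, hx, e1⟩ := ih
        refine ⟨e i ^ n i * x, mul_mem (pow_mem (heE i) _) hx, fun y => ?_⟩
        rw [map_mul, map_pow, he, cX_mul hp (pow_mem (ht i).1 _) hx.1, cX_pow hp (ht i).1, (ht i).2.2, e1,
          Finset.prod_insert hi]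
    choose f hfE hf using fun n : Fin l → Fin p => hprod (fun i => (n i : ℕ)) Finset.univ
    have hinj : Function.Injective fun n : Fin l → Fin p => (⟨f n, hfE n⟩ : ↥E) := by
      intro n m hnm
      have h2 : f n = f m := congrArg Subtype.val hnm
      funext i
      have h3 := hf n (sr i)
      rw [h2, hf m (sr i)] at h3
      have h4 : ∀ n : Fin l → Fin p, ∏ m : Fin l, (ζ ^ (sr i : Fin l → ℤ) m) ^ (n m : ℕ) = ζ ^ (n i : ℕ) := by
        intro n
        rw [Finset.prod_eq_single i]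
        · rw [sr_self, zpow_one]
        · intro b _ hb
          rw [sr_ne hb, zpow_zero, one_pow]
        · intro h; exact absurd (Finset.mem_univ i) h
      rw [h4, h4] at h3
      have h5 := hζ.pow_inj (m i).2 (n i).2 h3
      exact (Fin.ext h5).symm
    have h2 := Nat.card_le_card_of_injective _ hinj
    rwa [Nat.card_fun, Nat.card_fin, Nat.card_fin] at h2
  -- the elements of exponent `p` of the sup
  let T : Set S := {x | x ∈ E' ⊔ E ∧ x ^ p = 1}
  have hT : Nat.card T ≤ p ^ l := by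
    let f : T → (Fin l → ↥(rootsOfUnity p k)) := fun x i =>
      rootsOfUnity.mkOfPowEq (ch hp (sr i) (g * j x.1 * g⁻¹)) (by
        have h1 := hg' x.1 x.2.1
        have h2 := H129.TorusChar.cX_pow hp h1 p (sr i)
        rw [H129.TorusChar.cX_sr, H129.TorusChar.cX_sr] at h2
        rw [← h2, conj_pow, ← map_pow, x.2.2, map_one, mul_one, mul_inv_cancel]
        have h3 := H129.TorusChar.cX_one hp (k := k) (sr i)
        rwa [H129.TorusChar.cX_sr] at h3)
    have hf : Function.Injective f := by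
      intro x y hxy
      have h1 : g * j x.1 * g⁻¹ = g * j y.1 * g⁻¹ := by
        refine H129.TorusChar.cX_inj hp (hg' _ x.2.1) (hg' _ y.2.1) fun i => ?_
        rw [H129.TorusChar.cX_sr, H129.TorusChar.cX_sr]
        have h2 := congrFun hxy i
        have h3 := congrArg (fun z : ↥(rootsOfUnity p k) => ((z : kˣ) : k)) h2
        exact h3
      exact Subtype.ext (hj (mul_left_cancel (mul_right_cancel h1)))
    calc Nat.card T ≤ Nat.card (Fin l → ↥(rootsOfUnity p k)) := Nat.card_le_card_of_injective f hf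
      _ = Nat.card ↥(rootsOfUnity p k) ^ l := by rw [Nat.card_fun, Nat.card_fin]
      _ ≤ p ^ l := Nat.pow_le_pow_left (card_rootsOfUnity k p) l
  have hEeq : ∀ A : Subgroup S, A ≤ E' ⊔ E → (∀ x ∈ A, x ^ p = 1) → p ^ l ≤ Nat.card ↥A →
      (A : Set S) = T := by
    intro A hA hAp hAc
    refine Set.eq_of_subset_of_ncard_le (fun x hx => ⟨hA hx, hAp x hx⟩) ?_ (Set.toFinite _)
    have e1 : Set.ncard (A : Set S) = Nat.card ↥A := (Nat.card_coe_set_eq _).symm
    rw [e1, ← Nat.card_coe_set_eq]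
    exact hT.trans hAc
  have h2 := hEeq E le_sup_right (fun x hx => hx.2) hcE
  have h3 := hEeq E' le_sup_left hE'p (by rw [hcard]; exact hcE)
  exact SetLike.coe_injective (h3.trans h2.symm)

end Cfsg.Agent.H86.On
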