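import Cfsg.Agent.H720.RowsSix
import Cfsg.Agent.H86.On.Cyc

/-!
# S3855: `²E₆(q)`, `p ∣ Φ₅(-q) Φ₉(-q)` : cyclic Sylow subgroups (helper86)
-/

set_option autoImplicit false
set_option linter.unusedSectionVars false

namespace Cfsg.Agent.H86.On

open Cfsg.Agent.H720 Cfsg.Agent.H720.RowsSix
open CoxeterSystem Cfsg Cfsg.Lie Cfsg.Lie.ChevalleyDatum
open Cfsg.Agent.ChevalleyStructure Cfsg.Agent.ChevalleyStructure.Elts Cfsg.Agent.ChevalleyStructure.CoxeterGeom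
  Cfsg.Agent.ChevalleyStructure.CoxeterGeomTypes Cfsg.Agent.ChevalleyStructure.NPerm
open Cfsg.Agent.Tits.Roots Cfsg.Agent.Tits.Core Cfsg.Agent.Nodes Cfsg.Agent.Nodes.Reps Cfsg.Agent.Nodes.BNOf
  Cfsg.Agent.Nodes.RGDChev Cfsg.Agent.Nodes.Bruhat Cfsg.Agent.Nodes.SubComb Cfsg.Agent.Nodes.Coroot
open Cfsg.Agent.KFacts.RgdField Cfsg.Agent.KFacts.RgdChevCoord Cfsg.Agent.BpExc.TorCent Cfsg.Agent.BpExc.TorChev
open Cfsg.Agent.GpExc.Field Cfsg.Agent.BpExc.Tow Cfsg.Agent.BpExc.TowChev Cfsg.Agent.BpExc.Fr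
  Cfsg.Agent.BpExc.LangFr Cfsg.Agent.LangThm Cfsg.Agent.BpExc Cfsg.Agent.H129.TorusChar Cfsg.Agent.H129.TorusCent
  Cfsg.Agent.H129.TorusTw Cfsg.Agent.H129.TorusMain Cfsg.Agent.H129.TorusUntw Cfsg.Agent.H720.TorusReal
  Cfsg.Agent.H722.RealP Cfsg.Agent.H720.RealTw Cfsg.Agent.H130.WeylCk Cfsg.Agent.H130.WeylTab
  Cfsg.Agent.H720.RowsNeg Cfsg.Agent.H720.Functional Cfsg.Agent.H720.RowSix


variable {K : Type} [Field K] [Fintype K] {q p : ℕ} [hpp : Fact p.Prime]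

/-- **`p ∣ Φ₅(-q) Φ₉(-q)`** -/
theorem te6_cyc (hq : IsPrimePow q) (hK : Fintype.card K = q ^ 2) (hp3 : p ≠ 3) (hpq : ¬ p ∣ q)
    (h59 : orderOf (-(q : ZMod p)) = 5 ∨ orderOf (-(q : ZMod p)) = 9) : Cfsg.Agent.H467.OddNorm.Row p ↥(twistedE6 K q) := by
  have hcard := Cfsg.Agent.S1066.result hq hK
  obtain ⟨r, n, hpF, hpc, hpk, hn, rfl, hk, hA⟩ := RowTriD4.exists_closure_pow two_ne_zero hq hK
  have cs := CoxeterMatrix.E₆.toCoxeterSystem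
  have hp := TwFr.hp6
  have : Finite CoxeterMatrix.E₆.Group := finite_W hp cs
  have hsp : p ≠ r := fun h => hpq (by rw [h]; exact dvd_pow_self r hn.ne')
  have hq1 : 1 < r ^ n := Nat.one_lt_pow hn.ne' hpF.out.one_lt
  -- `-g` is in the Weyl group
  have hw0 : ∀ x, rep cs hp.isCartan (cs.wordProd [1, 2, 4, 0, 3, 5] ^ 6) x = -(TwFr.permE TwFr.rho6 x) := by
    intro x
    have h1 : ∀ x, rep cs hp.isCartan (cs.wordProd [1, 2, 4, 0, 3, 5] ^ 6) x =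
        (-(TwFr.permE TwFr.rho6).toAddMonoidHom.toIntLinearMap) x := by
      refine eq_of_sr fun i => ?_
      rw [rep_word lists_E6 cs hp.isCartan _ _ i, ck_w0, toFn_smul, toFn_bas, neg_smul, one_smul]
      show -(Pi.single (TwFr.rho6 i) 1 : Fin 6 → ℤ) = -(fun j => (sr i : Fin 6 → ℤ) (TwFr.rho6.symm j))
      congr 1
      funext j
      revert i j
      decide
    exact h1 x
  set w₀ := cs.wordProd [1, 2, 4, 0, 3, 5] ^ 6 with hw₀def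
  have hth : ∀ (w : CoxeterMatrix.E₆.Group) x, theta hp cs w (TwFr.permE TwFr.rho6) x =
      (-1 : ℤ) • rep cs hp.isCartan (w * w₀) x := by
    intro w x
    rw [theta_apply, rep_mul_apply, hw0, map_neg, neg_smul, one_smul, neg_neg]
  have hgcd : (Nat.gcd 3 (r ^ n + 1)) ∣ 3 := Nat.gcd_dvd_left _ _
  have e1 : (((-1 : ℤ) * (r ^ n : ℕ) : ℤ) : ZMod p) = -((r ^ n : ℕ) : ZMod p) := by push_cast; ring
  obtain ⟨x, hx⟩ := exists_gen hp cs hk hn (TwFr.isFrob_sig6 r n) (TwFr.fr_sig6 hk r hp cs n)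
    (nsys_of_locFin hp cs hk r)
    (Cfsg.Agent.BpExc.FamTw.Six.em_injective (q := r ^ n) (algebraMap K (AlgebraicClosure K)))
    (m := Nat.gcd 3 (r ^ n + 1))
    (ε := -1) (by norm_num) (fun v => ⟨v * w₀⁻¹, fun x => by
      rw [hth, inv_mul_cancel_right]⟩)
    (fun y hy => TwFr.desc6 _ r hk hn rfl hK hy) hpp.out hsp
    (Nat.Coprime.coprime_dvd_left hgcd ((Nat.coprime_primes Nat.prime_three hpp.out).2 (Ne.symm hp3))) (by
      rw [prod_degs]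
      set q := r ^ n with hqdef
      have h1 : ∀ i : ℕ, ((q : ℕ) : ℤ) ^ i - 1 = ((q ^ i - 1 : ℕ) : ℤ) := by
        intro i
        rw [Nat.cast_sub (Nat.one_le_pow _ _ (by omega))]
        push_cast
        ring
      have h2 : ((-1 * (q : ℤ)) ^ 2 - 1) * ((-1 * (q : ℤ)) ^ 5 - 1) * ((-1 * (q : ℤ)) ^ 6 - 1) *
          ((-1 * (q : ℤ)) ^ 8 - 1) * ((-1 * (q : ℤ)) ^ 9 - 1) * ((-1 * (q : ℤ)) ^ 12 - 1) =
          ((q : ℤ) ^ 2 - 1) * ((q : ℤ) ^ 5 + 1) * ((q : ℤ) ^ 6 - 1) * ((q : ℤ) ^ 8 - 1) * ((q : ℤ) ^ 9 + 1) *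
          ((q : ℤ) ^ 12 - 1) := by ring
      rw [h2, h1, h1, h1, h1]
      have h3 : Nat.card ↥(twistedE6 K q) ∣ q ^ 36 * ((q ^ 2 - 1) * (q ^ 5 + 1) * (q ^ 6 - 1) *
          (q ^ 8 - 1) * (q ^ 9 + 1) * (q ^ 12 - 1)) := by
        refine (Dvd.intro_left _ hcard).trans (dvd_of_eq ?_)
        ring
      exact_mod_cast h3) (by rw [e1]; exact h59)
  exact row_of_gen hx


end Cfsg.Agent.H86.On
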